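import Mathlib

/-!
# Groups of automorphisms of an elementary abelian group of order `p^N` have order dividing `|GL_N(p)|` (helper647)
-/

set_option autoImplicit false

namespace Cfsg.Agent.H647.P4

section
variable {V : Type*} [CommGroup V] {p : ℕ} [Fact p.Prime]

/-- an automorphism of `V` as a linear map -/
def linP (p : ℕ) (V : Type*) [CommGroup V] [Module (ZMod p) (Additive V)] :
    MulAut V →* Module.End (ZMod p) (Additive V) where
  toFun g := (MonoidHom.toAdditive (g : V ≃* V).toMonoidHom).toZModLinearMap p
  map_one' := LinearMap.ext fun _ => rfl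
  map_mul' _ _ := LinearMap.ext fun _ => rfl

theorem linP_apply (p : ℕ) (V : Type*) [CommGroup V] [Module (ZMod p) (Additive V)] (g : MulAut V) (v : V) :
    linP p V g (Additive.ofMul v) = Additive.ofMul (g v) := rfl

theorem linP_injective (p : ℕ) (V : Type*) [CommGroup V] [Module (ZMod p) (Additive V)] :
    Function.Injective (linP p V) := by
  intro g h hgh
  apply MulEquiv.ext
  intro q
  have h1 : linP p V g (Additive.ofMul q) = linP p V h (Additive.ofMul q) := by rw [hgh]
  rw [linP_apply, linP_apply] at h1
  exact Additive.ofMul.injective h1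

theorem card_dvd_GL (he : ∀ x : V, x ^ p = 1) {N : ℕ} (hV : Nat.card V = p ^ N) (Γ : Subgroup (MulAut V)) :
    Nat.card Γ ∣ Nat.card (Matrix.GeneralLinearGroup (Fin N) (ZMod p)) := by
  obtain ⟨inst⟩ : Nonempty (Module (ZMod p) (Additive V)) :=
    ⟨AddCommGroup.zmodModule (n := p) (fun v => by exact he v.toMul)⟩
  have hp : 0 < p := (Fact.out : p.Prime).pos
  have hfV : Finite V := Nat.finite_of_card_ne_zero (by rw [hV]; positivity)
  have hfA : Finite (Additive V) := inferInstanceAs (Finite V)
  have hfin : Module.Finite (ZMod p) (Additive V) := Module.Finite.of_finite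
  have hrank : Module.finrank (ZMod p) (Additive V) = N := by
    have h1 := Module.natCard_eq_pow_finrank (K := ZMod p) (V := Additive V)
    rw [Nat.card_zmod] at h1
    have h2 : Nat.card (Additive V) = p ^ N := hV
    rw [h2] at h1
    exact (Nat.pow_right_injective (Fact.out : p.Prime).two_le h1).symm
  let b := Module.finBasisOfFinrankEq (ZMod p) (Additive V) hrank
  let e : Module.End (ZMod p) (Additive V) ≃* Matrix (Fin N) (Fin N) (ZMod p) :=
    (LinearMap.toMatrixAlgEquiv b).toMulEquiv
  let f : Γ →* Matrix.GeneralLinearGroup (Fin N) (ZMod p) :=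
    ((Units.mapEquiv e).toMonoidHom.comp (MonoidHom.toHomUnits (linP p V))).comp Γ.subtype
  apply Subgroup.card_dvd_of_injective f
  intro x y hxy
  apply Subtype.ext
  apply linP_injective p V
  have h1 := congrArg (fun z : Matrix.GeneralLinearGroup (Fin N) (ZMod p) => (z : Matrix (Fin N) (Fin N) (ZMod p))) hxy
  exact e.injective h1

end

end Cfsg.Agent.H647.P4
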