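import Cfsg.Agent.H647.P4.VBase

/-!
# S5210 (V1): powers of `tor(s, l, τ)` (helper647)
-/

set_option autoImplicit false

namespace Cfsg.Agent.H647.P4

open Cfsg Cfsg.FusionSystem Cfsg.Agent.H776.P4
open Cfsg.Agent.H756.PU (HypK Ess Inv Com NormAut TIAut AF)

universe u

variable {K : Type u} [Field K] [StarRing K] {p n : ℕ}

theorem tor_mul {α β : MulAut (PG K)} {s l s' l' : K} {τ τ' : K ≃+* K} (hα : IsTorP α s l τ) (hβ : IsTorP β s' l' τ') :
    IsTorP (α * β) (s * τ s') (l * τ l') (τ'.trans τ) where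
  ns := mul_ne_zero hα.ns (by simpa using hβ.ns)
  nl := mul_ne_zero hα.nl (by simpa using hβ.nl)
  sl := by rw [star_mul', hα.sl, ← hα.tst, hβ.sl]
  tst x := by rw [RingEquiv.trans_apply, RingEquiv.trans_apply, hβ.tst, hα.tst]
  r g := by
    rw [MulAut.mul_apply, hα.r, hβ.r, RingEquiv.trans_apply, map_mul]; ring
  a g := by
    rw [MulAut.mul_apply, hα.a, hβ.a, RingEquiv.trans_apply, map_mul, map_mul, map_mul, star_mul', hα.tst]; ring
  b g := by
    rw [MulAut.mul_apply, hα.b, hβ.b, RingEquiv.trans_apply, map_mul, map_mul]; ring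
  c g := by
    rw [MulAut.mul_apply, hα.c, hβ.c, RingEquiv.trans_apply, map_mul]; ring

theorem tor_one : IsTorP (1 : MulAut (PG K)) 1 1 (RingEquiv.refl K) where
  ns := one_ne_zero
  nl := one_ne_zero
  sl := star_one K
  tst _ := rfl
  r g := by simp
  a g := by simp
  b g := by simp
  c g := by simp

theorem tor_congr {α : MulAut (PG K)} {s l s' l' : K} {τ τ' : K ≃+* K} (h : IsTorP α s l τ) (h1 : s = s') (h2 : l = l')
    (h3 : ∀ x, τ x = τ' x) : IsTorP α s' l' τ' := by
  have : τ = τ' := RingEquiv.ext h3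
  subst h1 h2 this
  exact h

theorem tor_pow {α : MulAut (PG K)} {s l : K} {τ : K ≃+* K} (h : IsTorP α s l τ) (j : ℕ) :
    ∃ (s' l' : K) (τ' : K ≃+* K), IsTorP (α ^ j) s' l' τ' ∧ ∀ x, τ' x = τ^[j] x := by
  induction j with
  | zero => exact ⟨1, 1, RingEquiv.refl K, by rw [pow_zero]; exact tor_one, fun _ => rfl⟩
  | succ j ih =>
    obtain ⟨s', l', τ', h1, h2⟩ := ih
    refine ⟨_, _, _, by rw [pow_succ']; exact tor_mul h h1, fun x => ?_⟩
    rw [RingEquiv.trans_apply, h2, Function.iterate_succ_apply']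

theorem tor_pow_refl {α : MulAut (PG K)} {s l : K} (h : IsTorP α s l (RingEquiv.refl K)) (j : ℕ) :
    IsTorP (α ^ j) (s ^ j) (l ^ j) (RingEquiv.refl K) := by
  induction j with
  | zero => rw [pow_zero, pow_zero, pow_zero]; exact tor_one
  | succ j ih =>
    rw [pow_succ' α]
    exact tor_congr (tor_mul h ih) (by rw [RingEquiv.refl_apply, pow_succ']) (by rw [RingEquiv.refl_apply, pow_succ'])
      (fun _ => rfl)

omit [StarRing K] in
/-- automorphisms of a field of order `p^N` -/
theorem iter_aut [Finite K] [hp : Fact p.Prime] [CharP K p] {N : ℕ} (hK : Nat.card K = p ^ N) (τ : K ≃+* K) (x : K) :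
    τ^[N] x = x := by
  let _ := ZMod.algebra K p
  have hfin : Module.Finite (ZMod p) K := Module.Finite.of_finite
  have hrank : Module.finrank (ZMod p) K = N := by
    have h1 := Module.natCard_eq_pow_finrank (K := ZMod p) (V := K)
    rw [Nat.card_zmod, hK] at h1
    exact (Nat.pow_right_injective hp.out.two_le h1).symm
  let σ : K ≃ₐ[ZMod p] K := AlgEquiv.ofRingEquiv (f := τ) (fun r => by
    have : (τ : K →+* K).comp (algebraMap (ZMod p) K) = algebraMap (ZMod p) K := Subsingleton.elim _ _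
    exact congrArg (fun f : ZMod p →+* K => f r) this)
  have h1 : Nat.card (K ≃ₐ[ZMod p] K) = N := by
    rw [IsGalois.card_aut_eq_finrank, hrank]
  have h2 : σ ^ N = 1 := by
    rw [← h1]
    exact pow_card_eq_one'
  have h3 : ∀ (j : ℕ) (y : K), (σ ^ j) y = τ^[j] y := by
    intro j
    induction j with
    | zero => intro y; rfl
    | succ j ih =>
      intro y
      rw [pow_succ', AlgEquiv.mul_apply, ih, Function.iterate_succ_apply']
      rfl
  rw [← h3, h2]; rfl

theorem arith {p n : ℕ} (hp : p.Prime) (hn : 1 ≤ n) (h3 : p ^ n ≠ 3) :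
    2 * n * (if p = 2 then 1 else 2) < p ^ n + 1 := by
  have key2 : ∀ m : ℕ, 2 * (m + 1) ≤ 2 ^ (m + 1) := by
    intro m
    induction m with
    | zero => norm_num
    | succ m ih => rw [pow_succ]; omega
  have key3 : ∀ m : ℕ, 4 * (m + 2) < 3 ^ (m + 2) := by
    intro m
    induction m with
    | zero => norm_num
    | succ m ih => rw [show m + 1 + 2 = (m + 2) + 1 by ring, pow_succ]; omega
  have key5 : ∀ m : ℕ, 4 * (m + 1) < 5 ^ (m + 1) := by
    intro m
    induction m with
    | zero => norm_num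
    | succ m ih => rw [pow_succ]; omega
  split_ifs with h
  · subst h
    obtain ⟨m, rfl⟩ : ∃ m, n = m + 1 := ⟨n - 1, by omega⟩
    have := key2 m
    omega
  · by_cases h' : p = 3
    · subst h'
      have hn1 : n ≠ 1 := by rintro rfl; exact h3 (by norm_num)
      obtain ⟨m, rfl⟩ : ∃ m, n = m + 2 := ⟨n - 2, by omega⟩
      have := key3 m
      omega
    · have h5 : 5 ≤ p := by
        have h2 := hp.two_le
        by_contra hc
        have : p = 4 := by omega
        subst this
        exact absurd hp (by norm_num)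
      obtain ⟨m, rfl⟩ : ∃ m, n = m + 1 := ⟨n - 1, by omega⟩
      have h6 := key5 m
      have h7 : 5 ^ (m + 1) ≤ p ^ (m + 1) := Nat.pow_le_pow_left h5 _
      omega

/-- the last assertion of (V1) -/
theorem exists_norm_one (h : HypK K p n) {d : MulAut (PG K)} {s l : K} {τ : K ≃+* K} (hd : IsTorP d s l τ)
    (hreg : ∀ j : ℕ, 0 < j → j * (if p = 2 then 1 else 2) < (p ^ n) ^ 2 - 1 → ((d ^ j) (ur 1)).r ≠ 1) :
    ∃ s : K, s ≠ 1 ∧ s * star s = 1 ∧ ∃ j : ℕ, IsTorP (d ^ j) s 1 (RingEquiv.refl K) := by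
  have := h.fin
  have := h.char
  have hp : Fact p.Prime := ⟨h.pp⟩
  have hq := Cfsg.Agent.H541.PU.two_le_q h
  have hunit : ∀ x : K, x ≠ 0 → x ^ ((p ^ n) ^ 2 - 1) = 1 := by
    intro x hx
    have := Fintype.ofFinite K
    have h1 := FiniteField.pow_card_sub_one_eq_one x hx
    rwa [← Nat.card_eq_fintype_card, h.card] at h1
  have hfix : ∀ x : K, x ≠ 0 → star x = x → x ^ (p ^ n - 1) = 1 := by
    intro x hx hs
    rw [h.star_eq] at hs
    apply mul_left_cancel₀ hx
    rw [← pow_succ', Nat.sub_add_cancel (by omega), hs, mul_one]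
  by_cases h3 : p ^ n = 3
  · have hpn : p = 3 ∧ n = 1 := by
      have h4 : p ∣ 3 := by
        rw [← h3]
        exact dvd_pow_self p (by have := h.hn; omega)
      have h5 : p = 3 := (Nat.prime_dvd_prime_iff_eq h.pp (by norm_num)).1 h4
      refine ⟨h5, ?_⟩
      subst h5
      exact Nat.pow_right_injective (le_refl 2 |>.trans (by norm_num)) (h3.trans (pow_one 3).symm)
    obtain ⟨hp3, hn1⟩ := hpn
    have hsq : ∀ x : K, x ≠ 0 → star x = x → x * x = 1 ∧ τ x = x := by
      intro x hx hs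
      have h4 := hfix x hx hs
      rw [h3] at h4
      have h5 : x * x = 1 := by linear_combination h4
      refine ⟨h5, ?_⟩
      rcases mul_self_eq_one_iff.1 h5 with h6 | h6
      · rw [h6, map_one]
      · rw [h6, map_neg, map_one]
    have hττ : ∀ x, τ (τ x) = x := by
      intro x
      have h4 := iter_aut (p := p) (N := 2) (by rw [h.card, h3, hp3]) τ x
      exact h4
    have h4 := tor_mul hd hd
    have hl := hsq l hd.nl hd.sl
    have hN : star (s * star s) = s * star s := by rw [star_mul', star_star, mul_comm]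
    have hN0 : s * star s ≠ 0 := mul_ne_zero hd.ns (by simpa using hd.ns)
    have hNs := hsq _ hN0 hN
    have h5 : IsTorP (d ^ 2) (s * τ s) 1 (RingEquiv.refl K) := by
      rw [pow_two]
      refine tor_congr h4 rfl ?_ ?_
      · rw [hl.2, hl.1]
      · intro x
        rw [RingEquiv.trans_apply, hττ]; rfl
    refine ⟨s * τ s, ?_, ?_, 2, h5⟩
    · intro h6
      refine hreg 2 (by norm_num) ?_ ?_
      · rw [h3, if_neg (by rw [hp3]; norm_num)]; norm_num
      · rw [h5.r, h6, ur_r, RingEquiv.refl_apply, one_mul]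
    · rw [star_mul', ← hd.tst]
      have h6 : s * τ s * (star s * τ (star s)) = (s * star s) * τ (s * star s) := by rw [map_mul]; ring
      rw [h6, hNs.2, hNs.1]
  · have har := arith h.pp h.hn h3
    obtain ⟨s', l', τ', h4, h5⟩ := tor_pow hd (2 * n)
    have h6 : IsTorP (d ^ (2 * n)) s' l' (RingEquiv.refl K) := by
      refine tor_congr h4 rfl rfl fun x => ?_
      rw [h5, iter_aut (p := p) (N := 2 * n) (by rw [h.card, ← pow_mul, mul_comm]) τ x]; rfl
    have h7 := tor_pow_refl h6 (p ^ n - 1)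
    rw [← pow_mul, hfix l' h4.nl h4.sl] at h7
    have hqq : (p ^ n) ^ 2 - 1 = (p ^ n - 1) * (p ^ n + 1) := by
      obtain ⟨k, hk⟩ : ∃ k, p ^ n = k + 1 := ⟨p ^ n - 1, by omega⟩
      rw [hk]
      have : (k + 1) ^ 2 = k * (k + 2) + 1 := by ring
      rw [this]
      simp
    refine ⟨s' ^ (p ^ n - 1), ?_, ?_, _, h7⟩
    · intro h8
      refine hreg (2 * n * (p ^ n - 1)) ?_ ?_ ?_
      · have := h.hn
        have : 0 < p ^ n - 1 := by omega
        positivity
      · rw [hqq]
        calc 2 * n * (p ^ n - 1) * (if p = 2 then 1 else 2)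
            = (p ^ n - 1) * (2 * n * (if p = 2 then 1 else 2)) := by ring
          _ < (p ^ n - 1) * (p ^ n + 1) := Nat.mul_lt_mul_of_pos_left har (by omega)
      · rw [h7.r, h8, ur_r, RingEquiv.refl_apply, one_mul]
    · rw [h.star_eq, ← pow_succ', ← pow_mul, ← hqq, hunit s' h4.ns]

end Cfsg.Agent.H647.P4
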