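import Cfsg.Agent.H647.P4.NoFix
import Cfsg.Agent.H647.P4.Tor

/-!
# S5210 (V1), from S3083 (helper647)
-/

set_option autoImplicit false

namespace Cfsg.Agent.H647.P4

open Subgroup
open scoped Pointwise
open Cfsg Cfsg.FusionSystem Cfsg.Agent.H776.P4
open Cfsg.Agent.H756.PU (HypK Ess Inv Com NormAut TIAut AF)

universe u

theorem mem_map_conj_iff {M : Type*} [Group M] {Γ : Subgroup M} {n : Γ} {Q Q' : Subgroup Γ}
    (h : Q.map (MulAut.conj n).toMonoidHom = Q') (z : M) :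
    z ∈ Q.map Γ.subtype ↔ (n : M) * z * (n : M)⁻¹ ∈ Q'.map Γ.subtype := by
  constructor
  · rintro ⟨z', hz', rfl⟩
    refine ⟨n * z' * n⁻¹, ?_, rfl⟩
    rw [← h]
    exact ⟨z', hz', rfl⟩
  · rintro ⟨w, hw, hw'⟩
    rw [SetLike.mem_coe, ← h] at hw
    obtain ⟨z', hz', rfl⟩ := hw
    refine ⟨z', hz', ?_⟩
    have h1 : (n : M) * (z' : M) * (n : M)⁻¹ = (n : M) * z * (n : M)⁻¹ := hw'
    exact mul_left_cancel (mul_right_cancel h1)

section
variable {K : Type u} [Field K] [StarRing K] {p n : ℕ}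

theorem isRP_mul {α β : MulAut (PG K)} {γ δ : MulAut (PV K)} (h : IsRP α γ) (h' : IsRP β δ) : IsRP (α * β) (γ * δ) := by
  intro e
  rw [MulAut.mul_apply, h, h', MulAut.mul_apply]

theorem isRP_one : IsRP (1 : MulAut (PG K)) (1 : MulAut (PV K)) := fun _ => rfl

theorem isRP_inv {α : MulAut (PG K)} {γ : MulAut (PV K)} (h : IsRP α γ) : IsRP α⁻¹ γ⁻¹ := by
  intro e
  have h1 := h (γ⁻¹ e)
  have h2 : γ (γ⁻¹ e) = e := γ.apply_symm_apply e
  rw [h2] at h1
  rw [h1]
  exact (α.symm_apply_apply _).symm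

theorem isRP_pow {α : MulAut (PG K)} {γ : MulAut (PV K)} (h : IsRP α γ) (j : ℕ) : IsRP (α ^ j) (γ ^ j) := by
  induction j with
  | zero => exact isRP_one
  | succ j ih => rw [pow_succ, pow_succ]; exact isRP_mul ih h

/-- the restrictions of the elements of `D`, in `Γ` -/
def DV (Γ : Subgroup (MulAut (PV K))) (D : Subgroup (MulAut (PG K))) : Subgroup Γ where
  carrier := {γ | ∃ d ∈ D, IsRP d (γ : MulAut (PV K))}
  one_mem' := ⟨1, D.one_mem, isRP_one⟩
  mul_mem' := by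
    rintro a b ⟨d, hd, h⟩ ⟨d', hd', h'⟩
    exact ⟨d * d', D.mul_mem hd hd', isRP_mul h h'⟩
  inv_mem' := by
    rintro a ⟨d, hd, h⟩
    exact ⟨d⁻¹, D.inv_mem hd, isRP_inv h⟩

theorem DV_cop [Finite (PG K)] [hp : Fact p.Prime] (Γ : Subgroup (MulAut (PV K))) (D : Subgroup (MulAut (PG K)))
    (hD : (Nat.card D).Coprime p) : (Nat.card (DV Γ D)).Coprime p := by
  rw [Nat.coprime_comm, Nat.Prime.coprime_iff_not_dvd hp.out]
  intro hdvd
  obtain ⟨⟨x, d, hd, hx⟩, hord⟩ := exists_prime_orderOf_dvd_card' p hdvd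
  have h1 : d ^ Nat.card D = 1 := by
    have := pow_card_eq_one' (x := (⟨d, hd⟩ : D))
    exact congrArg Subtype.val this
  have h2 : (⟨x, d, hd, hx⟩ : DV Γ D) ^ Nat.card D = 1 := by
    apply Subtype.ext
    apply Subtype.ext
    have h3 := isRP_pow hx (Nat.card D)
    rw [h1] at h3
    apply MulEquiv.ext
    intro e
    apply Subtype.ext
    exact h3 e
  have h4 := orderOf_dvd_of_pow_eq_one h2
  rw [hord] at h4
  have h5 := Nat.Coprime.eq_one_of_dvd (Nat.coprime_comm.1 hD) h4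
  exact hp.out.one_lt.ne' h5

theorem exists_kappa (h : HypK K p n) : ∃ k : K, k ≠ 0 ∧ k + star k = 0 := by
  obtain ⟨t, -, ht⟩ := Cfsg.Agent.H541.PU.exists_ne_star h
  refine ⟨t - star t, sub_ne_zero.2 ht, ?_⟩
  rw [star_sub, star_star]
  ring

/-- an element of `Y` is centralized by a non-trivial element of `U` -/
theorem exists_cent (h : HypK K p n) (v : PV K) (hv : (v : PG K) ∈ PY K) : ∃ r : K, r ≠ 0 ∧ cV (ur r) v = v := by
  have hc : (v : PG K).c = 0 := hv.2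
  have key : ∀ r : K, r * star (v : PG K).b + star r * (v : PG K).b = 0 → cV (ur r) v = v := by
    intro r hr
    apply v_ext
    · rw [cV_apply, cj_a, ur_r, hc]
      linear_combination hr
    · rw [cV_apply, cj_b, hc, mul_zero, add_zero]
    · rw [cV_apply, cj_c]
  by_cases hb : (v : PG K).b = 0
  · exact ⟨1, one_ne_zero, key 1 (by rw [hb]; simp)⟩
  · obtain ⟨k, hk0, hk⟩ := exists_kappa h
    refine ⟨(v : PG K).b * k, mul_ne_zero hb hk0, key _ ?_⟩
    rw [star_mul']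
    linear_combination (v : PG K).b * star (v : PG K).b * hk

end

set_option maxHeartbeats 1000000 in
theorem stV1_core (hS : SqLe.{u}) (hRk : StRk.{u}) (hG : StGrp.{u}) : StV1.{u} := by
  intro K _ _ p n h Γ D hP
  have hfK := h.fin
  have hfG := finite_PG h
  have hp : Fact p.Prime := ⟨h.pp⟩
  have hchar := h.char
  have hcardU : Nat.card (autInducedBy (⊤ : Subgroup (PG K)) (PV K)) = p ^ (2 * n) := by
    rw [card_U, h.card, ← pow_mul, mul_comm]
  have hcardV : Nat.card (PV K) = p ^ (2 * (2 * n)) := by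
    rw [card_PV hG h, ← pow_mul]; congr 1; ring
  -- the Sylow subgroup
  have hcardS : Nat.card ((autInducedBy (⊤ : Subgroup (PG K)) (PV K)).subgroupOf Γ) = p ^ (2 * n) := by
    rw [← hcardU]
    exact Nat.card_congr (subgroupOfEquivOfLe hP.indu).toEquiv
  obtain ⟨P, hPU⟩ : ∃ P : Sylow p Γ, (P : Subgroup Γ) = (autInducedBy (⊤ : Subgroup (PG K)) (PV K)).subgroupOf Γ := by
    have h1 : IsPGroup p ((autInducedBy (⊤ : Subgroup (PG K)) (PV K)).subgroupOf Γ) := IsPGroup.of_card hcardS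
    obtain ⟨P, hPle⟩ := h1.exists_le_sylow
    refine ⟨P, (Subgroup.eq_of_le_of_card_ge hPle ?_).symm⟩
    obtain ⟨g, hg, hgx⟩ := hP.syl ((P : Subgroup Γ).map Γ.subtype) (map_subtype_le _) (P.2.map _)
    rw [hcardS, ← hcardU]
    refine Nat.card_le_card_of_injective
      (fun x : (P : Subgroup Γ) => (⟨g * ((x : Γ) : MulAut (PV K)) * g⁻¹, hgx _ ⟨x, x.2, rfl⟩⟩ :
        autInducedBy (⊤ : Subgroup (PG K)) (PV K))) ?_
    intro x y hxy
    have h2 : g * ((x : Γ) : MulAut (PV K)) * g⁻¹ = g * ((y : Γ) : MulAut (PV K)) * g⁻¹ := congrArg Subtype.val hxy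
    exact Subtype.ext (Subtype.ext (mul_left_cancel (mul_right_cancel h2)))
  have hmemP : ∀ x : Γ, x ∈ (P : Subgroup Γ) ↔ (x : MulAut (PV K)) ∈ autInducedBy (⊤ : Subgroup (PG K)) (PV K) := by
    intro x; rw [hPU, mem_subgroupOf]
  have hmapP : (P : Subgroup Γ).map Γ.subtype = autInducedBy (⊤ : Subgroup (PG K)) (PV K) := by
    rw [hPU, subgroupOf_map_subtype, inf_eq_left]
    exact hP.indu
  have hnorm : ∀ γ : Γ, NormAut (⊤ : Subgroup (PG K)) (γ : MulAut (PV K)) →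
      γ ∈ normalizer ((P : Subgroup Γ) : Set Γ) := by
    intro γ hγ
    apply Sylow.smul_eq_iff_mem_normalizer.1
    apply Sylow.ext
    apply Subgroup.eq_of_le_of_card_ge
    · rintro _ ⟨x, hx, rfl⟩
      exact (hmemP _).2 (hγ _ ((hmemP _).1 hx))
    · exact (((γ • P).card_eq_multiplicity).trans (P.card_eq_multiplicity).symm).ge
  have hnorm' : ∀ γ : Γ, γ ∈ normalizer ((P : Subgroup Γ) : Set Γ) →
      NormAut (⊤ : Subgroup (PG K)) (γ : MulAut (PV K)) := by
    intro γ hγ x hx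
    exact (hmemP _).1 ((mem_normalizer_iff.1 hγ ⟨x, hP.indu hx⟩).1 ((hmemP _).2 hx))
  have hTI : TI P := by
    intro g hg x hx hgx
    by_contra hx1
    apply hg
    apply hnorm
    refine hP.ti g g.2 x ((hmemP _).1 hx) (fun hI => hx1 (Subtype.ext (Inn_V hI))) ((hmemP _).1 hgx)
  have hnn : ¬ (P : Subgroup Γ).Normal := by
    intro hn
    apply hP.nn
    intro γ hγ
    apply hnorm' ⟨γ, hγ⟩
    rw [Subgroup.normalizer_eq_top_iff.2 hn]
    trivial
  have hcardP : Nat.card (P : Subgroup Γ) = p ^ (2 * n) := by rw [hPU, hcardS]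
  obtain ⟨r1, r2, r3⟩ := hRk (m := 2 * n) P (by have := h.hn; omega) hTI hnn hcardP
    (fun x hx y hy => Subtype.ext (U_comm ((hmemP _).1 hx) ((hmemP _).1 hy)))
    (fun x hx => Subtype.ext (U_pow h ((hmemP _).1 hx)))
    (fun _ => @card_dvd_GL (PV K) vComm p hp (V_pow h) _ hcardV Γ)
  -- the opposite Sylow subgroup
  have hDn : ∀ γ ∈ DV Γ D, γ ∈ normalizer ((P : Subgroup Γ) : Set Γ) := by
    rintro γ ⟨d, hd, hγ⟩
    exact hnorm γ (isRP_normAut hγ)
  obtain ⟨P', hP', hDP'⟩ := exists_inv r1 hnn (DV Γ D) (DV_cop Γ D hP.D_cop) hDn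
  obtain ⟨x0, hx0, hx01⟩ : ∃ x0 ∈ (P : Subgroup Γ), x0 ≠ 1 := by
    by_contra hcon
    push Not at hcon
    apply hnn
    have : (P : Subgroup Γ) = ⊥ := by rw [eq_bot_iff]; intro x hx; rw [mem_bot]; exact hcon x hx
    rw [this]; infer_instance
  refine ⟨(P' : Subgroup Γ).map Γ.subtype, map_subtype_le _, ?_, ?_, ?_, ?_, ?_⟩
  · -- invariance
    rintro d hd δ hδ _ ⟨y, hy, rfl⟩
    have hδΓ := hP.D_res d hd δ hδ
    have h1 : (⟨δ, hδΓ⟩ : Γ) ∈ DV Γ D := ⟨d, hd, hδ⟩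
    exact ⟨_, (mem_normalizer_iff.1 (hDP' _ h1) y).1 hy, rfl⟩
  · -- swap
    intro x hx hx1
    obtain ⟨y, hy, h1, h2⟩ := r2 P' hP' ⟨x, hP.indu hx⟩ ((hmemP _).2 hx) (fun h => hx1 (congrArg Subtype.val h))
    refine ⟨y, ⟨y, hy, rfl⟩, fun z => ?_, fun z => ?_⟩
    · rw [mem_map_conj_iff h2 z, hmapP]; rfl
    · rw [← hmapP, mem_map_conj_iff h1 z]; rfl
  · -- transitivity
    intro γ hγ
    by_cases hγP : (⟨γ, hγ⟩ : Γ) • P = P
    · refine ⟨1, one_mem _, ?_⟩
      rw [inv_one, one_mul]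
      exact hnorm' ⟨γ, hγ⟩ (Sylow.smul_eq_iff_mem_normalizer.1 hγP)
    · obtain ⟨y, hy, h1, h2⟩ := r2 P' hP' x0 hx0 hx01
      obtain ⟨x, hx, hx'⟩ := r1 P' ((⟨γ, hγ⟩ : Γ) • P) hP' hγP
      have e1 : x • P' = (⟨γ, hγ⟩ : Γ) • P := Sylow.ext hx'
      have e2 : (x0 * y * x0) • P = P' := Sylow.ext h1
      have e3 : (x * (x0 * y * x0))⁻¹ * (⟨γ, hγ⟩ : Γ) ∈ normalizer ((P : Subgroup Γ) : Set Γ) := by
        apply Sylow.smul_eq_iff_mem_normalizer.1
        rw [mul_smul, ← e1, ← e2, ← mul_smul, ← mul_smul, mul_assoc, inv_mul_cancel, one_smul]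
      have hUmem : ∀ z : Γ, z ∈ (P : Subgroup Γ) → (z : MulAut (PV K)) ∈
          autInducedBy (⊤ : Subgroup (PG K)) (PV K) ⊔ (P' : Subgroup Γ).map Γ.subtype :=
        fun z hz => le_sup_left (α := Subgroup (MulAut (PV K))) ((hmemP z).1 hz)
      have hUmem' : ∀ z : Γ, z ∈ (P' : Subgroup Γ) → (z : MulAut (PV K)) ∈
          autInducedBy (⊤ : Subgroup (PG K)) (PV K) ⊔ (P' : Subgroup Γ).map Γ.subtype :=
        fun z hz => le_sup_right (α := Subgroup (MulAut (PV K))) ⟨z, hz, rfl⟩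
      refine ⟨((x * (x0 * y * x0) : Γ) : MulAut (PV K)), ?_, hnorm' _ e3⟩
      exact mul_mem (hUmem x hx) (mul_mem (mul_mem (hUmem x0 hx0) (hUmem' y hy)) (hUmem x0 hx0))
  · -- no fixed points
    intro v hvY hv
    obtain ⟨r, hr0, hr⟩ := exists_cent h v hvY
    have huU : cV (ur r) ∈ autInducedBy (⊤ : Subgroup (PG K)) (PV K) := mem_U'.2 ⟨r, rfl⟩
    let Stab : Subgroup Γ :=
      { carrier := {γ | (γ : MulAut (PV K)) v = v}
        one_mem' := rfl
        mul_mem' := by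
          intro a b ha hb
          show (a : MulAut (PV K)) ((b : MulAut (PV K)) v) = v
          rw [show (b : MulAut (PV K)) v = v from hb]
          exact ha
        inv_mem' := by
          intro a ha
          have h1 : (a : MulAut (PV K)) v = v := ha
          show (a : MulAut (PV K))⁻¹ v = v
          conv_lhs => rw [← h1]
          exact (a : MulAut (PV K)).symm_apply_apply v }
    have hP'S : (P' : Subgroup Γ) ≤ Stab := fun y hy => hv _ ⟨y, hy, rfl⟩
    have huS : (⟨cV (ur r), hP.indu huU⟩ : Γ) ∈ Stab := hr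
    obtain ⟨y, hy, h1, h2⟩ := r2 P' hP' ⟨cV (ur r), hP.indu huU⟩ ((hmemP _).2 huU) (by
      intro h1
      have h2 : cV (ur r) = 1 := congrArg Subtype.val h1
      rw [cV_eq_one_iff, ur_r] at h2
      exact hr0 h2)
    have hPS : (P : Subgroup Γ) ≤ Stab := by
      intro z hz
      rw [← h2] at hz
      obtain ⟨w, hw, rfl⟩ := hz
      exact mul_mem (mul_mem (mul_mem (mul_mem huS (hP'S hy)) huS) (hP'S hw))
        (inv_mem (mul_mem (mul_mem huS (hP'S hy)) huS))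
    let C0 : Subgroup (PV K) :=
      { carrier := {w | ∀ γ ∈ (P : Subgroup Γ) ⊔ (P' : Subgroup Γ), (γ : MulAut (PV K)) w = w}
        one_mem' := fun γ _ => map_one _
        mul_mem' := fun {a b} ha hb γ hγ => by rw [map_mul, ha γ hγ, hb γ hγ]
        inv_mem' := fun {a} ha γ hγ => by rw [map_inv, ha γ hγ] }
    have hvC : v ∈ C0 := fun γ hγ => (sup_le hPS hP'S) hγ
    have hC0 : C0 = ⊥ := by
      refine @nofix hS (PV K) vComm _ p hp (V_pow h) ((P : Subgroup Γ) ⊔ (P' : Subgroup Γ) : Subgroup Γ) _ _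
        (Γ.subtype.comp (Subgroup.subtype _)) (Subtype.val_injective.comp Subtype.val_injective)
        (P.subtype le_sup_left) (TI_subtype hTI le_sup_left)
        (not_normal_subtype hP' le_sup_left le_sup_right) C0 (fun g w hw => hw g g.2) ?_
      have h3 : Nat.card (P.subtype (le_sup_left : (P : Subgroup Γ) ≤ (P : Subgroup Γ) ⊔ (P' : Subgroup Γ))) =
          p ^ (2 * n) := by
        rw [← hcardP]
        exact Nat.card_congr (subgroupOfEquivOfLe le_sup_left).toEquiv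
      rw [h3, hcardV, ← pow_mul]
      apply le_of_eq
      congr 1
      ring
    rw [hC0, mem_bot] at hvC
    exact hvC
  · -- the torus
    obtain ⟨g, hg, hg', hgj⟩ := r3 P' hP'
    obtain ⟨x, d, hd, hxd⟩ := hP.norm g g.2 (hnorm' g hg)
    have hδ : IsRP d ((cV x)⁻¹ * (g : MulAut (PV K))) := by
      intro e
      have h1 : ((cV x)⁻¹ * (g : MulAut (PV K))) e = cV x⁻¹ ((g : MulAut (PV K)) e) := by rw [map_inv]; rfl
      rw [h1, cV_apply, hxd, inv_inv]
      group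
    have hδΓ := hP.D_res d hd _ hδ
    have hxU : cV x ∈ autInducedBy (⊤ : Subgroup (PG K)) (PV K) := mem_U.2 ⟨x, rfl⟩
    have hx1 : (⟨cV x, hP.indu hxU⟩ : Γ) = 1 := by
      apply reg_of_ne hTI hP' ((hmemP _).2 hxU)
      have h1 : (⟨cV x, hP.indu hxU⟩ : Γ) = g * (⟨_, hδΓ⟩ : Γ)⁻¹ := by
        apply Subtype.ext
        show cV x = (g : MulAut (PV K)) * ((cV x)⁻¹ * (g : MulAut (PV K)))⁻¹
        group
      rw [h1]
      exact mul_mem hg' (inv_mem (hDP' _ ⟨d, hd, hδ⟩))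
    have hx1' : cV x = 1 := congrArg Subtype.val hx1
    rw [hx1', inv_one, one_mul] at hδ
    obtain ⟨s, l, τ, hdt⟩ := (hG h).2.2.2.1 d (hP.D_le hd)
    obtain ⟨s', hs1, hs2, j, hj⟩ := exists_norm_one h hdt (by
      intro j hj0 hj hcon
      have huU : cV (ur (1 : K)) ∈ autInducedBy (⊤ : Subgroup (PG K)) (PV K) := mem_U'.2 ⟨1, rfl⟩
      have h1 := hgj j hj0 (by rw [mul_comm 2 n, pow_mul]; exact hj) ⟨cV (ur (1 : K)), hP.indu huU⟩ ((hmemP _).2 huU) (by
        apply Subtype.ext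
        show (g : MulAut (PV K)) ^ j * cV (ur 1) = cV (ur 1) * (g : MulAut (PV K)) ^ j
        have h2 := isRP_conj (isRP_pow hδ j) (ur 1)
        have h3 : cV ((d ^ j) (ur 1)) = cV (ur (1 : K)) := by
          rw [cV_eq_iff, hcon, ur_r]
        rw [h3] at h2
        rw [← mul_inv_eq_iff_eq_mul]
        exact h2)
      have h4 : cV (ur (1 : K)) = 1 := congrArg Subtype.val h1
      rw [cV_eq_one_iff, ur_r] at h4
      exact one_ne_zero h4)
    exact ⟨s', hs1, hs2, _, D.pow_mem hd j, hj⟩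

end Cfsg.Agent.H647.P4
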