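import Cfsg.Agent.H776.P4.Stmts
import Cfsg.Agent.H541.PU.Basic

/-!
# S5210 (V1): the action of `PG K` on `V` (helper647)
-/

set_option autoImplicit false

namespace Cfsg.Agent.H647.P4

open Cfsg Cfsg.FusionSystem Cfsg.Agent.H776.P4
open Cfsg.Agent.H756.PU (HypK Ess Inv Com NormAut TIAut AF)

universe u

variable {K : Type u} [Field K] [StarRing K] {p n : ℕ}

instance PV_normal : (PV K).Normal := ⟨fun x hx g => by
  have hx' : x.r = 0 := hx
  show (g * x * g⁻¹).r = 0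
  simp [hx']⟩

theorem finite_PG (h : HypK K p n) : Finite (PG K) := by
  have := h.fin
  refine Finite.of_injective (β := K × K × K × K) (fun x => (x.r, x.a, x.b, x.c)) ?_
  intro x y hxy
  simp only [Prod.mk.injEq] at hxy
  obtain ⟨h1, h2, h3, h4⟩ := hxy
  exact PG.ext h1 h2 h3 h4

/-! ### conjugation on `V` -/

theorem v_r (e : PV K) : (e : PG K).r = 0 := e.2

theorem cj_a (x : PG K) (e : PV K) : (x * e * x⁻¹).a = (e : PG K).a + x.r * star (e : PG K).b +
    star x.r * (e : PG K).b + x.r * star x.r * (e : PG K).c := by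
  have hr := v_r e
  have hc := x.hc
  simp only [PG.mul_a, PG.inv_a, PG.inv_b, PG.inv_c, PG.mul_r, hr, star_add, star_mul', star_neg, hc, star_zero]
  ring

theorem cj_b (x : PG K) (e : PV K) : (x * e * x⁻¹).b = (e : PG K).b + x.r * (e : PG K).c := by
  have hr := v_r e
  simp only [PG.mul_b, PG.inv_b, PG.mul_r, PG.inv_c, hr]
  ring

theorem cj_c (x : PG K) (e : PV K) : (x * e * x⁻¹).c = (e : PG K).c := by
  simp

theorem v_ext {e f : PV K} (ha : (e : PG K).a = (f : PG K).a) (hb : (e : PG K).b = (f : PG K).b)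
    (hc : (e : PG K).c = (f : PG K).c) : e = f :=
  Subtype.ext (PG.ext (by rw [v_r, v_r]) ha hb hc)

/-- conjugation -/
def cV : PG K →* MulAut (PV K) := MulAut.conjNormal

theorem cV_apply (x : PG K) (e : PV K) : ((cV x e : PV K) : PG K) = x * e * x⁻¹ := rfl

/-- the element `(0; 0, 0, 1)` -/
def vc : PV K := ⟨⟨0, 0, 0, 1, by simp, by simp⟩, rfl⟩

theorem cV_eq_iff (x y : PG K) : cV x = cV y ↔ x.r = y.r := by
  constructor
  · intro h
    have h1 : (x * (vc : PV K) * x⁻¹).b = (y * (vc : PV K) * y⁻¹).b := by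
      rw [← cV_apply, ← cV_apply, h]
    rw [cj_b, cj_b] at h1
    simpa [vc] using h1
  · intro h
    apply MulEquiv.ext
    intro e
    apply v_ext
    · rw [cV_apply, cV_apply, cj_a, cj_a, h]
    · rw [cV_apply, cV_apply, cj_b, cj_b, h]
    · rw [cV_apply, cV_apply, cj_c, cj_c]

theorem cV_eq_one_iff (x : PG K) : cV x = 1 ↔ x.r = 0 := by
  rw [← map_one (cV (K := K)), cV_eq_iff]; rfl

theorem mem_U {γ : MulAut (PV K)} : γ ∈ autInducedBy ⊤ (PV K) ↔ ∃ x : PG K, cV x = γ := by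
  rw [Cfsg.Agent.H802.mem_autInducedBy_iff]
  constructor
  · rintro ⟨g, -, hg⟩
    exact ⟨g, MulEquiv.ext fun e => Subtype.ext (by rw [cV_apply, hg])⟩
  · rintro ⟨x, rfl⟩
    exact ⟨x, trivial, fun e => cV_apply x e⟩

theorem U_eq : autInducedBy ⊤ (PV K) = (cV (K := K)).range := by
  ext γ
  rw [mem_U, MonoidHom.mem_range]

/-- `u_r` -/
def ur (r : K) : PG K := ⟨r, 0, 0, 0, by simp, by simp⟩

@[simp] theorem ur_r (r : K) : (ur r).r = r := rfl

theorem mem_U' {γ : MulAut (PV K)} : γ ∈ autInducedBy ⊤ (PV K) ↔ ∃ r : K, cV (ur r) = γ := by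
  rw [mem_U]
  constructor
  · rintro ⟨x, rfl⟩
    exact ⟨x.r, (cV_eq_iff _ _).2 rfl⟩
  · rintro ⟨r, rfl⟩
    exact ⟨_, rfl⟩

theorem card_U : Nat.card (autInducedBy ⊤ (PV K)) = Nat.card K := by
  refine (Nat.card_congr (Equiv.ofBijective
    (fun r : K => (⟨cV (ur r), mem_U'.2 ⟨r, rfl⟩⟩ : autInducedBy ⊤ (PV K))) ⟨?_, ?_⟩)).symm
  · intro r s h
    have h1 := congrArg Subtype.val h
    exact (cV_eq_iff _ _).1 h1
  · rintro ⟨γ, hγ⟩
    obtain ⟨r, hr⟩ := mem_U'.1 hγ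
    exact ⟨r, Subtype.ext hr⟩

theorem U_comm {x y : MulAut (PV K)} (hx : x ∈ autInducedBy ⊤ (PV K)) (hy : y ∈ autInducedBy ⊤ (PV K)) :
    x * y = y * x := by
  obtain ⟨a, rfl⟩ := mem_U.1 hx
  obtain ⟨b, rfl⟩ := mem_U.1 hy
  rw [← map_mul, ← map_mul, cV_eq_iff, PG.mul_r, PG.mul_r, add_comm]

theorem pow_r (x : PG K) (j : ℕ) : (x ^ j).r = j * x.r := by
  induction j with
  | zero => simp
  | succ j ih => rw [pow_succ, PG.mul_r, ih]; push_cast; ring

theorem U_pow (h : HypK K p n) {x : MulAut (PV K)} (hx : x ∈ autInducedBy ⊤ (PV K)) : x ^ p = 1 := by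
  have := h.char
  obtain ⟨a, rfl⟩ := mem_U.1 hx
  rw [← map_pow, cV_eq_one_iff, pow_r, CharP.cast_eq_zero, zero_mul]

theorem card_PV (hG : StGrp.{u}) (h : HypK K p n) : Nat.card (PV K) = (p ^ n) ^ 4 := by
  have h1 := (hG h).1
  have h2 : (cV (K := K)).ker = PV K := by
    ext x
    rw [MonoidHom.mem_ker, cV_eq_one_iff]
    rfl
  have h3 : (PV K).index = (p ^ n) ^ 2 := by
    rw [← h2, Subgroup.index_ker, ← h.card, ← card_U (K := K), U_eq]
  have h4 := (PV K).card_mul_index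
  rw [h1, h3] at h4
  have h5 : 0 < (p ^ n) ^ 2 := by have := h.pp.pos; positivity
  apply Nat.eq_of_mul_eq_mul_right h5
  rw [h4]; ring

/-! ### `V` is elementary abelian -/

theorem V_comm (x y : PV K) : x * y = y * x := by
  have hx := v_r x
  have hy := v_r y
  apply v_ext
  · simp only [Subgroup.coe_mul, PG.mul_a, hx, hy]; simp; ring
  · simp only [Subgroup.coe_mul, PG.mul_b, hx, hy]; simp; ring
  · simp only [Subgroup.coe_mul, PG.mul_c]; ring

theorem V_pow_coe (x : PV K) (j : ℕ) : ((x ^ j : PV K) : PG K).a = j * (x : PG K).a ∧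
    ((x ^ j : PV K) : PG K).b = j * (x : PG K).b ∧ ((x ^ j : PV K) : PG K).c = j * (x : PG K).c := by
  have hx := v_r x
  induction j with
  | zero => simp
  | succ j ih =>
    obtain ⟨i1, i2, i3⟩ := ih
    have k1 : ((x ^ j : PV K) : PG K).r = 0 := v_r _
    refine ⟨?_, ?_, ?_⟩
    · rw [pow_succ, Subgroup.coe_mul, PG.mul_a, k1, i1]; push_cast; simp; ring
    · rw [pow_succ, Subgroup.coe_mul, PG.mul_b, k1, i2]; push_cast; ring
    · rw [pow_succ, Subgroup.coe_mul, PG.mul_c, i3]; push_cast; ring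

theorem V_pow (h : HypK K p n) (x : PV K) : x ^ p = 1 := by
  have := h.char
  obtain ⟨h1, h2, h3⟩ := V_pow_coe x p
  apply v_ext
  · rw [h1, CharP.cast_eq_zero, zero_mul]; rfl
  · rw [h2, CharP.cast_eq_zero, zero_mul]; rfl
  · rw [h3, CharP.cast_eq_zero, zero_mul]; rfl

instance PV_isMulCommutative : IsMulCommutative (PV K) := ⟨⟨fun x y => V_comm x y⟩⟩

/-- `V` as a commutative group -/
@[reducible] def vComm : CommGroup (PV K) := { (inferInstance : Group (PV K)) with mul_comm := V_comm }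

theorem Inn_V {γ : MulAut (PV K)} (h : γ ∈ Cfsg.Inn (PV K)) : γ = 1 := by
  obtain ⟨x, rfl⟩ := h
  apply MulEquiv.ext
  intro e
  rw [MulAut.conj_apply, V_comm x e, mul_inv_cancel_right, MulAut.one_apply]

/-- for an automorphism `α` of `PG K` inducing `δ` on `V`, `δ` normalizes `Aut_S(V)` -/
theorem isRP_conj {α : MulAut (PG K)} {δ : MulAut (PV K)} (h : IsRP α δ) (x : PG K) : δ * cV x * δ⁻¹ = cV (α x) := by
  apply MulEquiv.ext
  intro e
  apply Subtype.ext
  rw [MulAut.mul_apply, MulAut.mul_apply, h, cV_apply, cV_apply, map_mul, map_mul, map_inv, ← h]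
  have h1 : δ (δ⁻¹ e) = e := δ.apply_symm_apply e
  rw [h1]

theorem isRP_normAut {α : MulAut (PG K)} {δ : MulAut (PV K)} (h : IsRP α δ) : NormAut (⊤ : Subgroup (PG K)) δ := by
  intro x hx
  obtain ⟨a, rfl⟩ := mem_U.1 hx
  rw [isRP_conj h]
  exact mem_U.2 ⟨_, rfl⟩

end Cfsg.Agent.H647.P4
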